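import Cfsg.Agent.AltCent.Fixed
import Cfsg.Agent.AltCent.TwoZero.Data
import Cfsg.Agent.AltCent.TwoZero.Reps
import Cfsg.Agent.AltCent.TwoZero.Terms0
import Cfsg.Agent.AltCent.TwoZero.Terms1

/-! # TwoZero: conclusion (generated certificate data) -/

set_option autoImplicit false
set_option maxRecDepth 100000
set_option maxHeartbeats 4000000

namespace CfsgLib.AltCent.TwoZero

def terms : List Term := terms0 ++ terms1

theorem sum_ok : eqMod 2 (termPairs 2 bases T B terms) [(0, 1)] [(3, 1), (4, 2), (5, 2), (6, 1), (7, 2), (8, 1), (9, 2), (10, 1), (11, 1), (12, 1), (13, 1), (14, 2), (15, 1), (16, 3), (17, 1), (18, 1), (19, 3), (20, 2), (21, 1), (22, 3), (23, 1), (24, 1), (25, 2), (26, 2), (27, 2), (28, 1), (29, 1), (30, 2), (31, 2), (32, 1), (33, 1), (34, 1), (35, 2), (36, 1), (37, 1), (38, 1), (39, 1), (40, 2), (41, 1), (42, 1), (44, 1), (45, 2), (46, 1), (47, 1), (48, 1), (49, 1), (50, 1), (51, 3), (52, 2), (53, 1), (54, 1), (55, 1), (58, 3), (59, 1), (60, 1), (61, 1), (62, 2), (63, 2), (64, 1), (65, 2), (66, 1), (67,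 2), (69, 1), (70, 1), (71, 1), (72, 1), (73, 1), (74, 2), (75, 1), (76, 2), (77, 1), (78, 1), (79, 1), (80, 2), (81, 1), (84, 1), (86, 1), (87, 1), (88, 1), (90, 2), (91, 2), (92, 1), (93, 3), (94, 1), (95, 2), (96, 1), (97, 2), (98, 2), (99, 2), (100, 2), (101, 2), (102, 1), (103, 1), (104, 1), (107, 2), (108, 3), (109, 2), (110, 1), (111, 2), (112, 1), (113, 1), (114, 2), (115, 2), (118, 2), (119, 1), (120, 1), (122, 1), (123, 1), (124, 1), (125, 2), (126, 2), (127, 3), (128, 1), (129, 1), (131, 1), (132, 2), (133, 1), (134, 2), (135, 1), (136, 2), (137, 1), (138, 2), (139, 2), (140, 1), (141, 2), (142, 2), (143, 2), (145, 2), (146, 1), (147, 2), (148, 4), (150, 1), (151, 2), (152, 2), (153, 1), (154, 2), (155, 1), (156, 2), (157, 1), (158, 1), (159, 2), (160, 2), (161, 1), (162, 1), (163, 1), (164, 1), (165, 1), (166, 1), (167, 1), (169, 2), (170, 2), (172, 1), (173, 2), (174, 1), (175, 2), (176, 2), (177, 2), (178, 2), (179, 1), (180, 1), (181, 2), (182, 2), (183, 1), (184, 2), (185, 2), (186, 3), (187, 1), (188, 1),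 (189, 3), (190, 3), (191, 2), (192, 1), (193, 3), (194, 2), (197, 1), (198, 1), (200, 1), (201, 1), (202, 1), (204, 1), (206, 3), (207, 1), (208, 1), (209, 3), (210, 1), (211, 1), (212, 1), (213, 1), (214, 1), (215, 1), (216, 2), (217, 1), (218, 2), (220, 1), (221, 1), (222, 1), (223, 3), (224, 2), (225, 1), (226, 1), (227, 2), (228, 2), (229, 2), (230, 1), (231, 1), (232, 1), (233, 1), (234, 1), (235, 2), (236, 1), (237, 1), (238, 2), (239, 2), (240, 2), (241, 2), (242, 2), (243, 1), (244, 1), (245, 2), (248, 1), (249, 1), (250, 2), (251, 1), (252, 1), (253, 2), (254, 2), (255, 1), (256, 2), (257, 1), (258, 1), (259, 1), (260, 1), (261, 2), (262, 1), (263, 1), (264, 1), (265, 1), (267, 1), (268, 1), (270, 1), (271, 1), (272, 2), (274, 1), (275, 1), (276, 1), (277, 1), (278, 2), (279, 1), (280, 1), (282, 1), (283, 1), (284, 1), (285, 2), (286, 1), (287, 2), (288, 1), (291, 1), (292, 2), (293, 2), (294, 2), (295, 1), (296, 2), (297, 1), (298, 2), (299, 2), (300, 1), (301, 1), (302, 2), (303, 1), (304, 1), (305, 1), (306,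 1), (307, 1), (308, 2), (309, 2), (310, 2), (311, 1), (312, 1), (313, 1), (314, 1), (315, 1), (316, 2), (317, 2), (318, 3), (319, 4), (320, 2)] [] = true := by decide +kernel

theorem terms_ok : termsOK 9 bases tR cR T B terms = true := (termsOK_append _ _ terms0_ok terms1_ok)

variable {V : Type*} [AddCommGroup V] [DistribMulAction (alternatingGroup (Fin 9)) V]

/-- The table acts by scalars as soon as its generators do. -/
theorem acts (hp : ∀ x : V, 2 • x = 0) (v : V)
    (hg : ∀ g ∈ gens, el 9 g.1 • v = g.2 • v) : Acts (n := 9) v B := by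
  have z := zero_ok
  simp only [Bool.and_eq_true] at z
  refine acts_of_actsOK (by norm_num) hp v B gens (fun g hgm => ⟨?_, hg g hgm⟩) steps
    (Nat.eq_of_beq_eq_true z.1.1) (Nat.eq_of_beq_eq_true z.1.2) steps_ok
  have hr := goodTab_of_repsOK genWords rfl gens_ok
  simp only [gens, List.mem_cons, List.not_mem_nil, or_false] at hgm
  rcases hgm with rfl | rfl | rfl | rfl | rfl | rfl
  · exact (show get 0x987632541098321076549854763210987645320198765410329876542301 0 = 654820254465 by decide +kernel) ▸ hr 0 (by decide)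
  · exact (show get 0x987632541098321076549854763210987645320198765410329876542301 1 = 654820249650 by decide +kernel) ▸ hr 1 (by decide)
  · exact (show get 0x987632541098321076549854763210987645320198765410329876542301 2 = 654819275265 by decide +kernel) ▸ hr 2 (by decide)
  · exact (show get 0x987632541098321076549854763210987645320198765410329876542301 3 = 654252061200 by decide +kernel) ▸ hr 3 (by decide)
  · exact (show get 0x987632541098321076549854763210987645320198765410329876542301 4 = 653674968660 by decide +kernel) ▸ hr 4 (by decide)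
  · exact (show get 0x987632541098321076549854763210987645320198765410329876542301 5 = 654818038800 by decide +kernel) ▸ hr 5 (by decide)

/-- No nonzero vector satisfies the hypotheses. -/
theorem eq_zero (hp : ∀ x : V, 2 • x = 0) (hX : NoFix 9 V) (v : V)
    (hg : ∀ g ∈ gens, el 9 g.1 • v = g.2 • v) : v = 0 := by
  have hB := acts hp v hg
  have z := zero_ok
  have hR := reps_ok
  simp only [Bool.and_eq_true] at z hR
  have hb : ∀ b ∈ bases, GoodTab 9 b.tbl b.cnt ∧ bval (n := 9) v b = 0 := by
    intro b hb
    simp only [bases, List.mem_append, List.mem_cons, List.not_mem_nil, or_false] at hb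
    rcases hb with (hf | hb) | rfl
    · exact hf.elim
    · exact fixesOK_spec (by norm_num) hp hX hB fixes fixes_ok b hb
    · exact trivBase_spec (by norm_num) hp (by norm_num) v
  have hT : GoodTab 9 T.tbl T.cnt := by
    have hs := sub_ok
    simp only [subOK, Bool.and_eq_true, List.all_eq_true, List.mem_range, Nat.blt_eq] at hs
    intro k hk
    rw [Nat.eq_of_beq_eq_true (hs.2 k hk).1.1.2]
    exact hB.good _ (hs.2 k hk).1.1.1
  exact eq_zero_of_cert (by norm_num) hp hB sub_ok (by decide) (Nat.eq_of_beq_eq_true z.2)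
    (termsOK_spec (by norm_num) hp hB hT tau_ok
      (goodTab_of_repsOK rWords (Nat.eq_of_beq_eq_true hR.1) hR.2) (fun b h => (hb b h).1)
      (fun b h => (hb b h).2) terms terms_ok) sum_ok

end CfsgLib.AltCent.TwoZero
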